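import Cfsg.Agent.Lib.OrderDegrees.U34.Data

/-! The certificate for `SU(3,4)`, checked by the kernel. -/

set_option autoImplicit false
set_option maxRecDepth 100000

namespace CfsgLib.OrderDegrees.U34

theorem powA_spec : powA.getD 0 M3.one = M3.one ∧
    ∀ k < 13, (powA.getD k M3.one).mul genA = powA.getD ((k + 1) % 13) M3.one := by decide +kernel

theorem inSU_all : (inSU genA && inSU elt10 && inSU elt15 && reps.all inSU) = true := by decide +kernel

theorem checkPair_all :
    ((List.range 32).all fun i => (List.range 32).all fun j => checkPair i j) = true := by decide +kernel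

theorem label_witness : ∃ i < 32, lab (reps.getD i M3.one).evenPart % 5 ≠ 0 := ⟨28, by decide +kernel⟩

end CfsgLib.OrderDegrees.U34
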