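import Cfsg.Agent.Lib.OrderDegrees.U34.Data

/-! The coded arithmetic is that of every field with 16 elements. -/

set_option autoImplicit false

namespace CfsgLib.OrderDegrees.U34

variable {F : Type*} [Field F]

theorem exists_root_gf16 [CharP F 2] [Fintype F] (hF : Fintype.card F = 16) :
    ∃ ω : F, ω ^ 4 + ω + 1 = 0 := by
  classical
  obtain ⟨g, hg⟩ := IsCyclic.exists_ofOrder_eq_natCard (α := Fˣ)
  rw [Nat.card_eq_fintype_card, Fintype.card_units, hF] at hg
  set x : F := (g : F)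
  have hord : orderOf x = 15 := by rw [orderOf_units]; simpa using hg
  have h15 : x ^ 15 = 1 := hord ▸ pow_orderOf_eq_one x
  have h2 : (2 : F) = 0 := CharP.cast_eq_zero F 2
  have hne : ∀ k, 0 < k → k < 15 → x ^ k ≠ 1 := fun k h0 hk h =>
    absurd (Nat.le_of_dvd h0 (orderOf_dvd_of_pow_eq_one h)) (by omega)
  have hfac : (x ^ 4 + x + 1) * (x ^ 4 + x ^ 3 + 1) * (x ^ 4 + x ^ 3 + x ^ 2 + x + 1) * (x ^ 2 + x + 1) *
      (x + 1) = 0 := by
    linear_combination h15 + x * (2 + 4*x + 6*x^2 + 9*x^3 + 13*x^4 + 16*x^5 + 17*x^6 + 17*x^7 + 16*x^8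
      + 13*x^9 + 9*x^10 + 6*x^11 + 4*x^12 + 2*x^13) * h2 + h2
  have ha : x + 1 ≠ 0 := fun h => hne 1 one_pos (by norm_num) (by linear_combination h - h2)
  have hb : x ^ 2 + x + 1 ≠ 0 := fun h => hne 3 (by norm_num) (by norm_num) (by linear_combination (x - 1) * h)
  have hc : x ^ 4 + x ^ 3 + x ^ 2 + x + 1 ≠ 0 := fun h =>
    hne 5 (by norm_num) (by norm_num) (by linear_combination (x - 1) * h)
  rcases mul_eq_zero.mp hfac with h | h
  rotate_left
  · exact absurd h ha
  rcases mul_eq_zero.mp h with h | h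
  rotate_left
  · exact absurd h hb
  rcases mul_eq_zero.mp h with h | h
  rotate_left
  · exact absurd h hc
  rcases mul_eq_zero.mp h with h | h
  · exact ⟨x, h⟩
  · refine ⟨x⁻¹, ?_⟩
    have hx : x ≠ 0 := g.ne_zero
    field_simp
    linear_combination h

/-- The value of a code. -/
def ev (ω : F) (a : ℕ) : F :=
  (if a.testBit 0 then 1 else 0) + (if a.testBit 1 then ω else 0) + (if a.testBit 2 then ω ^ 2 else 0)
    + (if a.testBit 3 then ω ^ 3 else 0)

@[simp] theorem ev_zero (ω : F) : ev ω 0 = 0 := by simp [ev]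

@[simp] theorem ev_one (ω : F) : ev ω 1 = 1 := by simp [ev, Nat.testBit_succ]

theorem ev_mod (ω : F) (a : ℕ) : ev ω (a % 16) = ev ω a := by
  simp only [ev, show (16 : ℕ) = 2 ^ 4 from rfl, Nat.testBit_mod_two_pow]
  norm_num

theorem ev_xor [CharP F 2] (ω : F) (a b : ℕ) : ev ω (a ^^^ b) = ev ω a + ev ω b := by
  have key : ∀ (p q : Bool) (c : F),
      (if (p ^^ q) = true then c else 0) = (if p = true then c else 0) + (if q = true then c else 0) := by
    intro p q c
    cases p <;> cases q <;> simp [CharTwo.add_self_eq_zero]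
  simp only [ev, Nat.testBit_xor, key]
  abel

def logTable : List ℕ := [1, 2, 4, 8, 3, 6, 12, 11, 5, 10, 7, 14, 15, 13, 9]

theorem fmul_table : (∀ a < 16, fmul 0 a = 0 ∧ fmul a 0 = 0 ∧
      (a = 0 ∨ ∃ i < 15, logTable.getD i 0 = a)) ∧
    ∀ i < 15, ∀ j < 15, fmul (logTable.getD i 0) (logTable.getD j 0) = logTable.getD ((i + j) % 15) 0 := by
  decide +kernel

variable [CharP F 2] {ω : F} (hω : ω ^ 4 + ω + 1 = 0)
include hω

theorem ev_log : ω ^ 15 = 1 ∧ ∀ i < 15, ev ω (logTable.getD i 0) = ω ^ i := by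
  have h4 : ω ^ 4 = ω + 1 := by linear_combination (norm := (ring_nf <;> simp [CharTwo.two_eq_zero])) hω
  have h5 : ω ^ 5 = ω ^ 2 + ω := by linear_combination (norm := (ring_nf <;> simp [CharTwo.two_eq_zero])) ω * h4
  have h6 : ω ^ 6 = ω ^ 3 + ω ^ 2 := by linear_combination (norm := (ring_nf <;> simp [CharTwo.two_eq_zero])) ω * h5
  have h7 : ω ^ 7 = ω ^ 3 + ω + 1 := by linear_combination (norm := (ring_nf <;> simp [CharTwo.two_eq_zero])) ω * h6 + h4
  have h8 : ω ^ 8 = ω ^ 2 + 1 := by linear_combination (norm := (ring_nf <;> simp [CharTwo.two_eq_zero])) ω * h7 + h4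
  have h9 : ω ^ 9 = ω ^ 3 + ω := by linear_combination (norm := (ring_nf <;> simp [CharTwo.two_eq_zero])) ω * h8
  have h10 : ω ^ 10 = ω ^ 2 + ω + 1 := by linear_combination (norm := (ring_nf <;> simp [CharTwo.two_eq_zero])) ω * h9 + h4
  have h11 : ω ^ 11 = ω ^ 3 + ω ^ 2 + ω := by linear_combination (norm := (ring_nf <;> simp [CharTwo.two_eq_zero])) ω * h10
  have h12 : ω ^ 12 = ω ^ 3 + ω ^ 2 + ω + 1 := by linear_combination (norm := (ring_nf <;> simp [CharTwo.two_eq_zero])) ω * h11 + h4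
  have h13 : ω ^ 13 = ω ^ 3 + ω ^ 2 + 1 := by linear_combination (norm := (ring_nf <;> simp [CharTwo.two_eq_zero])) ω * h12 + h4
  have h14 : ω ^ 14 = ω ^ 3 + 1 := by linear_combination (norm := (ring_nf <;> simp [CharTwo.two_eq_zero])) ω * h13 + h4
  have h15 : ω ^ 15 = 1 := by linear_combination (norm := (ring_nf <;> simp [CharTwo.two_eq_zero])) ω * h14 + h4
  refine ⟨h15, fun i hi => ?_⟩
  interval_cases i <;> simp [ev, logTable, Nat.testBit_eq_decide_div_mod_eq] <;>
    simp only [h4, h5, h6, h7, h8, h9, h10, h11, h12, h13, h14] <;> ring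

theorem ev_fmul (a b : ℕ) : ev ω (fmul a b) = ev ω a * ev ω b := by
  have hf : fmul a b = fmul (a % 16) (b % 16) := by simp [fmul]
  rw [hf, ← ev_mod ω a, ← ev_mod ω b]
  obtain ⟨h15, hlog⟩ := ev_log hω
  have ha := fmul_table.1 _ (Nat.mod_lt a (by norm_num : 0 < 16))
  have hb := fmul_table.1 _ (Nat.mod_lt b (by norm_num : 0 < 16))
  rcases ha.2.2 with ha0 | ⟨i, hi, hia⟩
  · rw [ha0, hb.1]; simp
  rcases hb.2.2 with hb0 | ⟨j, hj, hjb⟩
  · rw [hb0, ha.2.1]; simp
  rw [← hia, ← hjb, fmul_table.2 i hi j hj, hlog i hi, hlog j hj, hlog _ (Nat.mod_lt _ (by norm_num)),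
    ← pow_add, ← pow_eq_pow_mod _ h15]

theorem ev_eq_zero {a : ℕ} (ha : a < 16) (h : ev ω a = 0) : a = 0 := by
  rcases (fmul_table.1 a ha).2.2 with h0 | ⟨i, hi, hia⟩
  · exact h0
  · rw [← hia, (ev_log hω).2 i hi] at h
    have hne : ω ≠ 0 := fun h0 => by simp [h0] at hω
    exact absurd h (pow_ne_zero _ hne)

theorem ev_injective : Function.Injective fun a : Fin 16 => ev ω a := by
  intro a b h
  have hlt : (a : ℕ) ^^^ b < 2 ^ 4 := Nat.xor_lt_two_pow a.isLt b.isLt
  have h0 : ev ω ((a : ℕ) ^^^ b) = 0 := by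
    rw [ev_xor]
    simp only at h
    rw [h, CharTwo.add_self_eq_zero]
  have := ev_eq_zero hω hlt h0
  exact Fin.ext (Nat.xor_eq_zero_iff.mp this)

theorem ev_conj4 (a : ℕ) : ev ω (conj4 a) = ev ω a ^ 4 := by
  have h : conj4 a = fmul (fmul a a) (fmul a a) := by
    have key : ∀ r < 16, conj4 r = fmul (fmul r r) (fmul r r) := by decide +kernel
    have h1 : conj4 a = conj4 (a % 16) := by simp [conj4]
    have h2 : fmul a a = fmul (a % 16) (a % 16) := by simp [fmul]
    rw [h1, h2]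
    exact key _ (Nat.mod_lt a (by norm_num))
  rw [h, ev_fmul hω, ev_fmul hω]
  ring

end CfsgLib.OrderDegrees.U34
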