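import Cfsg.Agent.Lib.OrderDegrees.U34.Check
import Cfsg.Agent.Lib.OrderDegrees.U34.Model
import Cfsg.Agent.Lib.Generators.GU
import Cfsg.Agent.Lib.ClassicalForms.Unitary.Center

/-!
A `ZMod 5`-valued function on `SU(3,4)` which sums to zero on every left coset of every subgroup of order 13.
-/

set_option autoImplicit false
set_option linter.unusedSectionVars false

namespace CfsgLib.OrderDegrees.U34

open Matrix CfsgLib.Generators

variable {F : Type*} [Field F]

abbrev Mat3 (F : Type*) : Type _ := Matrix (Fin 3) (Fin 3) F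

def toMat (ω : F) (X : M3) : Mat3 F :=
  !![ev ω X.a, ev ω X.b, ev ω X.c; ev ω X.d, ev ω X.e, ev ω X.f; ev ω X.g, ev ω X.h, ev ω X.i]

/-- The even monomials of a determinant. -/
def evenF (A : Mat3 F) : F := A 0 0 * A 1 1 * A 2 2 + A 0 1 * A 1 2 * A 2 0 + A 0 2 * A 1 0 * A 2 1

def oddF (A : Mat3 F) : F := A 0 0 * A 1 2 * A 2 1 + A 0 1 * A 1 0 * A 2 2 + A 0 2 * A 1 1 * A 2 0

theorem evenF_transpose (A : Mat3 F) : evenF Aᵀ = evenF A := by
  simp only [evenF, transpose_apply]; ring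

def monMat (d : Fin 3 → F) (π : Equiv.Perm (Fin 3)) : Mat3 F :=
  of fun i j => if j = π i then d i else 0

theorem fin3 (a : Fin 3) : a = 0 ∨ a = 1 ∨ a = 2 := by fin_cases a <;> simp

variable [CharP F 2]

theorem det_eq_even_add_odd (A : Mat3 F) : A.det = evenF A + oddF A := by
  rw [det_fin_three]
  simp only [evenF, oddF, CharTwo.sub_eq_add]
  ring

theorem det_monMat (d : Fin 3 → F) (π : Equiv.Perm (Fin 3)) : (monMat d π).det = d 0 * d 1 * d 2 := by
  have h : ∀ a b c : Fin 3, a ≠ b → a ≠ c → b ≠ c →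
      (of ![Pi.single a (d 0), Pi.single b (d 1), Pi.single c (d 2)] : Mat3 F).det = d 0 * d 1 * d 2 := by
    intro a b c hab hac hbc
    rw [det_eq_even_add_odd]
    rcases fin3 a with rfl | rfl | rfl <;> rcases fin3 b with rfl | rfl | rfl <;>
      rcases fin3 c with rfl | rfl | rfl <;> simp at hab hac hbc <;>
      simp [evenF, oddF]
  rw [← h (π 0) (π 1) (π 2) (π.injective.ne (by decide)) (π.injective.ne (by decide)) (π.injective.ne (by decide))]
  congr 1
  ext i j
  fin_cases i <;> simp [monMat, Pi.single_apply]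

/-- Left multiplication by a monomial matrix of determinant one preserves or swaps even and odd parts. -/
theorem evenF_monMat_mul (d : Fin 3 → F) (π : Equiv.Perm (Fin 3)) (hd : d 0 * d 1 * d 2 = 1) :
    (∀ Y : Mat3 F, Y.det = 1 → evenF (monMat d π * Y) = evenF Y) ∨
      (∀ Y : Mat3 F, Y.det = 1 → evenF (monMat d π * Y) = 1 + evenF Y) := by
  have hrow : ∀ (Y : Mat3 F) i j, (monMat d π * Y) i j = d i * Y (π i) j := fun Y i j => by
    simp [monMat, mul_apply]
  simp only [evenF, hrow]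
  have h : ∀ a b c : Fin 3, a ≠ b → a ≠ c → b ≠ c →
      (∀ Y : Mat3 F, Y.det = 1 → d 0 * Y a 0 * (d 1 * Y b 1) * (d 2 * Y c 2) + d 0 * Y a 1 * (d 1 * Y b 2) * (d 2 * Y c 0)
        + d 0 * Y a 2 * (d 1 * Y b 0) * (d 2 * Y c 1) = evenF Y) ∨
      (∀ Y : Mat3 F, Y.det = 1 → d 0 * Y a 0 * (d 1 * Y b 1) * (d 2 * Y c 2) + d 0 * Y a 1 * (d 1 * Y b 2) * (d 2 * Y c 0)
        + d 0 * Y a 2 * (d 1 * Y b 0) * (d 2 * Y c 1) = 1 + evenF Y) := by
    intro a b c hab hac hbc
    rcases fin3 a with rfl | rfl | rfl <;> rcases fin3 b with rfl | rfl | rfl <;>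
      rcases fin3 c with rfl | rfl | rfl <;> simp at hab hac hbc <;>
      first
        | (refine Or.inl fun Y hY => ?_
           simp only [evenF]
           linear_combination (Y 0 0 * Y 1 1 * Y 2 2 + Y 0 1 * Y 1 2 * Y 2 0 + Y 0 2 * Y 1 0 * Y 2 1) * hd)
        | (refine Or.inr fun Y hY => ?_
           rw [det_eq_even_add_odd] at hY
           simp only [evenF, oddF] at hY ⊢
           have h2 : (2 : F) = 0 := CharTwo.two_eq_zero
           linear_combination (Y 0 0 * Y 1 2 * Y 2 1 + Y 0 1 * Y 1 0 * Y 2 2 + Y 0 2 * Y 1 1 * Y 2 0) * hd + hY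
             - (Y 0 0 * Y 1 1 * Y 2 2 + Y 0 1 * Y 1 2 * Y 2 0 + Y 0 2 * Y 1 0 * Y 2 1) * h2)
  exact h (π 0) (π 1) (π 2) (π.injective.ne (by decide)) (π.injective.ne (by decide)) (π.injective.ne (by decide))

theorem monMat_mul (d e : Fin 3 → F) (π τ : Equiv.Perm (Fin 3)) :
    monMat d π * monMat e τ = monMat (fun i => d i * e (π i)) (π.trans τ) := by
  ext i j
  simp only [monMat, mul_apply, of_apply]
  rw [Finset.sum_eq_single (π i) (fun k _ hk => by simp [hk]) (by simp)]
  by_cases h : j = τ (π i) <;> simp [h]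

theorem monMat_transpose (d : Fin 3 → F) (π : Equiv.Perm (Fin 3)) :
    (monMat d π)ᵀ = monMat (fun i => d (π.symm i)) π.symm := by
  ext i j
  simp only [monMat, transpose_apply, of_apply]
  by_cases h : j = π.symm i
  · subst h; simp
  · rw [if_neg h, if_neg]
    rintro rfl
    exact h (π.symm_apply_apply j).symm

theorem toMat_one (ω : F) : toMat ω M3.one = 1 := by
  ext i j; fin_cases i <;> fin_cases j <;> simp [toMat, M3.one]

variable {ω : F} (hω : ω ^ 4 + ω + 1 = 0)
include hω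

theorem toMat_mul (X Y : M3) : toMat ω (X.mul Y) = toMat ω X * toMat ω Y := by
  ext i j
  fin_cases i <;> fin_cases j <;>
    simp [toMat, M3.mul, mul_apply, Fin.sum_univ_three, ev_xor, ev_fmul hω]

theorem toMat_star (X : M3) : toMat ω X.star = qAdjoint 4 (toMat ω X) := by
  ext i j
  fin_cases i <;> fin_cases j <;> simp [toMat, M3.star, qAdjoint, ev_conj4 hω]

theorem evenF_toMat (X : M3) : evenF (toMat ω X) = ev ω X.evenPart := by
  simp [evenF, toMat, M3.evenPart, ev_xor, ev_fmul hω]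

theorem oddF_toMat (X : M3) : oddF (toMat ω X) = ev ω X.oddPart := by
  simp [oddF, toMat, M3.oddPart, ev_xor, ev_fmul hω]

theorem det_toMat_of_inSU {X : M3} (h : inSU X = true) :
    (toMat ω X).det = 1 ∧ qAdjoint 4 (toMat ω X) * toMat ω X = 1 := by
  simp only [inSU, Bool.and_eq_true, decide_eq_true_eq] at h
  refine ⟨?_, ?_⟩
  · rw [det_eq_even_add_odd, evenF_toMat hω, oddF_toMat hω, ← ev_xor, h.2, ev_one]
  · rw [← toMat_star hω, ← toMat_mul hω, h.1, toMat_one]

end CfsgLib.OrderDegrees.U34
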