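import Cfsg.Agent.Lib.OrderDegrees.U34.Group

/-!
The function `g ↦ lab (evenF g)` on `SU(3,4)` sums to zero on `x ⟨A⟩ y` for the element `A` of order 13.
-/

set_option autoImplicit false
set_option linter.unusedSectionVars false

namespace CfsgLib.OrderDegrees.U34

open Matrix CfsgLib.Generators

/-- `F` with a chosen root of `x ^ 4 + x + 1`. -/
structure Coord (F : Type*) [Field F] [Fintype F] where
  ω : F
  root : ω ^ 4 + ω + 1 = 0
  card : Fintype.card F = 16

variable {F : Type*} [Field F] [Fintype F]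

theorem charP_two (hF : Fintype.card F = 16) : CharP F 2 :=
  charP_of_card_eq_prime_pow (f := 4) hF

variable [CharP F 2] (K : Coord F)

local notation "SU₄" => Cfsg.SU 3 F 4

noncomputable def evEquiv : Fin 16 ≃ F :=
  Equiv.ofBijective (fun a : Fin 16 => ev K.ω a) ((Fintype.bijective_iff_injective_and_card _).mpr
    ⟨ev_injective K.root, by rw [Fintype.card_fin, K.card]⟩)

noncomputable def dec (x : F) : ℕ := (evEquiv K).symm x

theorem ev_dec (x : F) : ev K.ω (dec K x) = x := (evEquiv K).apply_symm_apply x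

theorem dec_ev (n : ℕ) : dec K (ev K.ω n) = n % 16 := by
  rw [← ev_mod]
  exact congrArg Fin.val ((evEquiv K).symm_apply_apply ⟨n % 16, Nat.mod_lt _ (by norm_num)⟩)

theorem dec_lt (x : F) : dec K x < 16 := ((evEquiv K).symm x).isLt

/-- The labelling of `F` by `ZMod 5`. -/
noncomputable def label (x : F) : ZMod 5 := (lab (dec K x) : ZMod 5)

theorem label_ev (n : ℕ) : label K (ev K.ω n) = (lab n : ZMod 5) := by
  rw [label, dec_ev, show lab (n % 16) = lab n by simp [lab]]

theorem label_one_add (x : F) : label K (1 + x) = -label K x := by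
  have h1 : 1 + x = ev K.ω (1 ^^^ dec K x) := by rw [ev_xor, ev_one, ev_dec]
  have h2 : ∀ r < 16, ((lab (1 ^^^ r) : ZMod 5) + (lab r : ZMod 5)) = 0 := by decide +kernel
  rw [h1, label_ev, label]
  exact eq_neg_of_add_eq_zero_left (h2 _ (dec_lt K x))

abbrev mat (g : SU₄) : Mat3 F := ((g : SpecialLinearGroup (Fin 3) F) : Mat3 F)

theorem mat_ext {g h : SU₄} (e : mat g = mat h) : g = h := Subtype.ext (Subtype.ext e)

@[simp] theorem mat_mul (g h : SU₄) : mat (g * h) = mat g * mat h := rfl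

@[simp] theorem mat_one : mat (1 : SU₄) = 1 := rfl

theorem det_mat (g : SU₄) : (mat g).det = 1 := g.1.2

noncomputable def f (g : SU₄) : ZMod 5 := label K (evenF (mat g))

def mkSU (A : Mat3 F) (hdet : A.det = 1) (h : qAdjoint 4 A * A = 1) (hF : Fintype.card F = 16) : SU₄ :=
  ⟨⟨A, hdet⟩, (mem_GU_iff_qAdjoint (q := 4) (by rw [hF]; norm_num)
    (Matrix.SpecialLinearGroup.toGL ⟨A, hdet⟩)).mpr h⟩

theorem mat_inv (K : Coord F) (g : SU₄) : mat g⁻¹ = qAdjoint 4 (mat g) := by
  have h1 : qAdjoint 4 (mat g) * mat g = 1 := (mem_GU_iff_qAdjoint (q := 4) (by rw [K.card]; norm_num)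
    (Matrix.SpecialLinearGroup.toGL g.1)).mp g.2
  have h2 : mat g * mat g⁻¹ = 1 := by rw [← mat_mul, mul_inv_cancel, mat_one]
  exact (left_inv_eq_right_inv h1 h2).symm

noncomputable def ofCode (X : M3) : SU₄ :=
  if h : inSU X = true then
    mkSU (toMat K.ω X) (det_toMat_of_inSU K.root h).1 (det_toMat_of_inSU K.root h).2 K.card
  else 1

theorem mat_ofCode {X : M3} (h : inSU X = true) : mat (ofCode K X) = toMat K.ω X := by
  rw [ofCode, dif_pos h]; rfl

/-- The element of order 13. -/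
noncomputable def gen : SU₄ := ofCode K genA

theorem inSU_data : inSU genA = true ∧ inSU elt10 = true ∧ inSU elt15 = true ∧
    ∀ i, inSU (reps.getD i M3.one) = true := by
  have h := inSU_all
  simp only [Bool.and_eq_true, List.all_eq_true] at h
  refine ⟨h.1.1.1, h.1.1.2, h.1.2, fun i => ?_⟩
  by_cases hi : i < reps.length
  · rw [List.getD_eq_getElem _ _ hi]; exact h.2 _ (List.getElem_mem hi)
  · rw [List.getD_eq_default _ _ (not_lt.mp hi)]; decide +kernel

theorem mat_gen_pow (k : ℕ) : mat (gen K ^ k) = toMat K.ω (powA.getD (k % 13) M3.one) := by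
  induction k with
  | zero => rw [pow_zero, mat_one, Nat.zero_mod, powA_spec.1, toMat_one]
  | succ k ih =>
    rw [pow_succ, mat_mul, ih, gen, mat_ofCode K inSU_data.1, ← toMat_mul K.root,
      powA_spec.2 _ (Nat.mod_lt _ (by norm_num)), Nat.mod_add_mod]

theorem gen_pow_13 : gen K ^ 13 = 1 :=
  mat_ext (by rw [mat_gen_pow, Nat.mod_self, powA_spec.1, toMat_one, mat_one])

theorem orderOf_gen : orderOf (gen K) = 13 := by
  have : Fact (Nat.Prime 13) := ⟨by norm_num⟩
  refine orderOf_eq_prime (gen_pow_13 K) fun h => ?_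
  have h01 := congrFun (congrFun (congrArg mat h) 1) 1
  rw [gen, mat_ofCode K inSU_data.1, mat_one] at h01
  have h4 : dec K (ev K.ω 4) = dec K (ev K.ω 1) := by
    rw [ev_one]; exact congrArg (dec K) (by simpa [toMat, genA] using h01)
  rw [dec_ev, dec_ev] at h4
  norm_num at h4

noncomputable def pw (k : Fin 13) : SU₄ := gen K ^ (k : ℕ)

theorem pw_add (a b : Fin 13) : pw K (a + b) = pw K a * pw K b := by
  rw [pw, pw, pw, ← pow_add, Fin.val_add]
  exact (pow_eq_pow_mod _ (gen_pow_13 K)).symm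

noncomputable def rep (i : Fin 32) : SU₄ := ofCode K (reps.getD i M3.one)

/-- `rep i * gen ^ k * (rep j)⁻¹` in coded form. -/
def mid (i j : Fin 32) (k : Fin 13) : M3 :=
  ((reps.getD i M3.one).mul (powA.getD k M3.one)).mul (reps.getD j M3.one).star

theorem mat_mid (i j : Fin 32) (k : Fin 13) :
    mat (rep K i * pw K k * (rep K j)⁻¹) = toMat K.ω (mid i j k) := by
  rw [mid, toMat_mul K.root, toMat_mul K.root, toMat_star K.root, mat_mul, mat_mul, mat_inv K, rep, rep,
    mat_ofCode K (inSU_data.2.2.2 i), mat_ofCode K (inSU_data.2.2.2 j), pw, mat_gen_pow,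
    Nat.mod_eq_of_lt k.isLt]

theorem mid_check (i j : Fin 32) :
    (∑ k : Fin 13, (lab (mid i j k).evenPart : ZMod 5)) = 0 ∧
      ∀ k : Fin 13, (mid i j k).isMono = true → i = j ∧ k = 0 := by
  have h := checkPair_all
  simp only [List.all_eq_true, List.mem_range] at h
  have := h i i.isLt j j.isLt
  simp only [checkPair, Bool.and_eq_true, beq_iff_eq, List.all_eq_true, List.mem_range] at this
  obtain ⟨h1, h2⟩ := this
  constructor
  · have h1' := congrArg (Nat.cast : ℕ → ZMod 5) (Nat.mod_add_div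
      ((List.range 13).map fun k => lab (((reps.getD i M3.one).mul (powA.getD k M3.one)).mul
        (reps.getD j M3.one).star).evenPart).sum 5)
    rw [h1, Nat.cast_add, Nat.cast_mul, Nat.cast_zero, ZMod.natCast_self, zero_mul, add_zero] at h1'
    rw [← Nat.cast_sum, h1']
    congr 1
  · intro k hk
    have := h2 k k.isLt
    change (mid i j k).isMono = true at hk
    change (!(mid i j k).isMono || (((i : ℕ) == j) && ((k : ℕ) == 0))) = true at this
    rw [hk] at this
    simp only [Bool.not_true, Bool.false_or, Bool.and_eq_true, beq_iff_eq] at this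
    exact ⟨Fin.ext this.1, Fin.ext this.2⟩

/-- Monomial elements. -/
def IsMono (g : SU₄) : Prop := ∃ (d : Fin 3 → F) (π : Equiv.Perm (Fin 3)), mat g = monMat d π

theorem IsMono.mul {g h : SU₄} (hg : IsMono g) (hh : IsMono h) : IsMono (g * h) := by
  obtain ⟨d, π, hg⟩ := hg
  obtain ⟨e, τ, hh⟩ := hh
  exact ⟨_, _, by rw [mat_mul, hg, hh, monMat_mul]⟩

theorem IsMono.inv {g : SU₄} (K : Coord F) (hg : IsMono g) : IsMono g⁻¹ := by
  obtain ⟨d, π, hg⟩ := hg
  refine ⟨fun i => d (π.symm i) ^ 4, π.symm, ?_⟩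
  rw [mat_inv K, hg, qAdjoint,
    show (monMat d π).map (fun x => x ^ 4) = monMat (fun i => d i ^ 4) π from ?_, monMat_transpose]
  ext i j
  simp only [monMat, map_apply, of_apply]
  split_ifs <;> simp

theorem IsMono.f_mul {g : SU₄} (hg : IsMono g) : ∃ s : ZMod 5, ∀ y, f K (g * y) = s * f K y := by
  obtain ⟨d, π, hg⟩ := hg
  have hd : d 0 * d 1 * d 2 = 1 := by rw [← det_monMat d π, ← hg]; exact det_mat g
  rcases evenF_monMat_mul d π hd with h | h
  · exact ⟨1, fun y => by rw [f, f, mat_mul, hg, h _ (det_mat y), one_mul]⟩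
  · exact ⟨-1, fun y => by rw [f, f, mat_mul, hg, h _ (det_mat y), label_one_add, neg_one_mul]⟩

theorem IsMono.f_mul_right {g : SU₄} (hg : IsMono g) : ∃ s : ZMod 5, ∀ y, f K (y * g) = s * f K y := by
  obtain ⟨d, π, hg⟩ := hg
  have hd : d (π.symm 0) * d (π.symm 1) * d (π.symm 2) = 1 := by
    rw [← det_monMat (fun i => d (π.symm i)) π.symm, ← monMat_transpose, det_transpose, ← hg]; exact det_mat g
  have key : ∀ y : SU₄, evenF (mat (y * g)) =
      evenF (monMat (fun i => d (π.symm i)) π.symm * (mat y)ᵀ) := fun y => by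
    rw [← monMat_transpose, ← transpose_mul, evenF_transpose, mat_mul, hg]
  have hy : ∀ y : SU₄, ((mat y)ᵀ).det = 1 := fun y => by rw [det_transpose]; exact det_mat y
  rcases evenF_monMat_mul (fun i => d (π.symm i)) π.symm hd with h | h
  · exact ⟨1, fun y => by rw [f, f, key, h _ (hy y), evenF_transpose, one_mul]⟩
  · exact ⟨-1, fun y => by rw [f, f, key, h _ (hy y), evenF_transpose, label_one_add, neg_one_mul]⟩

theorem IsMono.isMono_code {g : SU₄} (hg : IsMono g) {X : M3} (hX : mat g = toMat K.ω X)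
    (hlt : X.a < 16 ∧ X.b < 16 ∧ X.c < 16 ∧ X.d < 16 ∧ X.e < 16 ∧ X.f < 16 ∧ X.g < 16 ∧ X.h < 16 ∧ X.i < 16) :
    X.isMono = true := by
  obtain ⟨d, π, hg⟩ := hg
  rw [hg] at hX
  have hz : ∀ i j, j ≠ π i → toMat K.ω X i j = 0 := fun i j h => by rw [← hX]; simp [monMat, h]
  have hz' := fun n (h : n < 16) (h0 : ev K.ω n = 0) => ev_eq_zero K.root h h0
  have row : ∀ (i : Fin 3) (x y z : ℕ), x < 16 → y < 16 → z < 16 →
      toMat K.ω X i = ![ev K.ω x, ev K.ω y, ev K.ω z] →
      (x == 0 && y == 0 || x == 0 && z == 0 || y == 0 && z == 0) = true := by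
    intro i x y z hx hy hz₀ he
    have h0 := hz i 0; have h1 := hz i 1; have h2 := hz i 2
    rw [he] at h0 h1 h2
    simp only [Matrix.cons_val_zero, Matrix.cons_val_one, Matrix.cons_val_two, Matrix.tail_cons,
      Matrix.head_cons] at h0 h1 h2
    rcases fin3 (π i) with h | h | h <;> rw [h] at h0 h1 h2
    · simp [hz' y hy (h1 (by decide)), hz' z hz₀ (h2 (by decide))]
    · simp [hz' x hx (h0 (by decide)), hz' z hz₀ (h2 (by decide))]
    · simp [hz' x hx (h0 (by decide)), hz' y hy (h1 (by decide))]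
  obtain ⟨ha, hb, hc, hd, he, hf, hg', hh, hi⟩ := hlt
  simp only [M3.isMono, row 0 _ _ _ ha hb hc rfl, row 1 _ _ _ hd he hf rfl, row 2 _ _ _ hg' hh hi rfl,
    Bool.and_self]

theorem fmul_lt (a b : ℕ) : fmul a b < 2 ^ 4 := Nat.mod_lt _ (by norm_num)

theorem eq_of_isMono_mid {i j : Fin 32} {k : Fin 13} (h : IsMono (rep K i * pw K k * (rep K j)⁻¹)) :
    i = j ∧ k = 0 := by
  refine (mid_check i j).2 k (h.isMono_code K (mat_mid K i j k) ?_)
  simp only [mid, M3.mul, show (16 : ℕ) = 2 ^ 4 from rfl]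
  refine ⟨?_, ?_, ?_, ?_, ?_, ?_, ?_, ?_, ?_⟩ <;>
    exact Nat.xor_lt_two_pow (Nat.xor_lt_two_pow (fmul_lt _ _) (fmul_lt _ _)) (fmul_lt _ _)

section Decomposition

def ζ : F := K.ω ^ 3

theorem orderOf_zeta : orderOf (ζ K) = 5 := by
  have : Fact (Nat.Prime 5) := ⟨by norm_num⟩
  refine orderOf_eq_prime (by rw [ζ, ← pow_mul]; exact (ev_log K.root).1) fun h => ?_
  have h8 : dec K (ev K.ω 8) = dec K (ev K.ω 1) := by
    rw [ev_one]; congr 1; rw [← h, ζ]; simp [ev, Nat.testBit_eq_decide_div_mod_eq]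
  rw [dec_ev, dec_ev] at h8
  norm_num at h8

def diagVals (a b : Fin 5) : Fin 3 → F := ![ζ K ^ (a : ℕ), ζ K ^ (b : ℕ), ζ K ^ (10 - (a : ℕ) - b)]

noncomputable def mono (x : (Fin 5 × Fin 5) × Equiv.Perm (Fin 3)) : SU₄ :=
  mkSU (monMat (diagVals K x.1.1 x.1.2) x.2)
    (by
      rw [det_monMat]
      simp only [diagVals, cons_val_zero, cons_val_one, cons_val_two, tail_cons, head_cons, ← pow_add]
      rw [show (x.1.1 : ℕ) + x.1.2 + (10 - x.1.1 - x.1.2) = 5 * 2 by omega, pow_mul,
        ← orderOf_zeta K, pow_orderOf_eq_one, one_pow])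
    (by
      have h5 : ∀ i, diagVals K x.1.1 x.1.2 i ^ 5 = 1 := by
        intro i
        have hz : ζ K ^ 5 = 1 := by rw [← orderOf_zeta K, pow_orderOf_eq_one]
        have hn : ∀ n : ℕ, (ζ K ^ n) ^ 5 = 1 := fun n => by rw [← pow_mul, mul_comm, pow_mul, hz, one_pow]
        fin_cases i <;> simp [diagVals, hn]
      rw [qAdjoint, show (monMat (diagVals K x.1.1 x.1.2) x.2).map (fun y => y ^ 4) =
        monMat (fun i => diagVals K x.1.1 x.1.2 i ^ 4) x.2 from ?_, monMat_transpose, monMat_mul]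
      · ext i j
        simp only [monMat, of_apply, Equiv.trans_apply, Equiv.apply_symm_apply, one_apply,
          ← pow_succ, h5]
        simp [eq_comm]
      · ext i j
        simp only [monMat, map_apply, of_apply]
        split_ifs <;> simp)
    K.card

theorem isMono_mono (x : (Fin 5 × Fin 5) × Equiv.Perm (Fin 3)) : IsMono (mono K x) := ⟨_, _, rfl⟩

theorem mono_injective : Function.Injective (mono K) := by
  rintro ⟨⟨a, b⟩, π⟩ ⟨⟨a', b'⟩, τ⟩ h
  have e := congrArg mat h
  change monMat (diagVals K a b) π = monMat (diagVals K a' b') τ at e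
  have hz : ζ K ≠ 0 := by
    intro h0
    have := orderOf_zeta K
    rw [h0, orderOf_zero] at this
    norm_num at this
  have hne : ∀ (a b : Fin 5) i, diagVals K a b i ≠ 0 := fun a b i => by
    fin_cases i <;> simp [diagVals, hz]
  have hπ : π = τ := Equiv.ext fun i => by
    by_contra hne'
    have := congrFun (congrFun e i) (π i)
    simp [monMat, hne', hne] at this
  subst hπ
  have hd : ∀ i, diagVals K a b i = diagVals K a' b' i := fun i => by
    simpa [monMat] using congrFun (congrFun e i) (π i)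
  have inj : ∀ a a' : Fin 5, ζ K ^ (a : ℕ) = ζ K ^ (a' : ℕ) → a = a' := fun a a' h =>
    Fin.ext (pow_injOn_Iio_orderOf (by simp [orderOf_zeta, a.isLt]) (by simp [orderOf_zeta, a'.isLt]) h)
  rw [inj a a' (by simpa [diagVals] using hd 0), inj b b' (by simpa [diagVals] using hd 1)]

noncomputable def decomp (x : ((Fin 5 × Fin 5) × Equiv.Perm (Fin 3)) × Fin 32 × Fin 13) : SU₄ :=
  mono K x.1 * (rep K x.2.1 * pw K x.2.2)

theorem card_SU (K : Coord F) : Nat.card SU₄ = 62400 := by
  have hF : Nat.card F = 4 ^ 2 := by rw [Nat.card_eq_fintype_card, K.card]; norm_num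
  have h1 := ClassicalForms.card_gu_eq_mul_su (n := 3) hF (by norm_num)
  rw [ClassicalForms.card_gu hF 3, Finset.prod_range_succ, Finset.prod_range_succ, Finset.prod_range_succ,
    Finset.prod_range_zero] at h1
  norm_num at h1
  omega

theorem decomp_surjective : Function.Surjective (decomp K) := by
  have hinj : Function.Injective (decomp K) := by
    rintro ⟨m, i, a⟩ ⟨m', j, b⟩ h
    simp only [decomp] at h
    have hab : pw K (b - a) * pw K a = pw K b := by rw [← pw_add, sub_add_cancel]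
    have e : rep K j * pw K (b - a) * (rep K i)⁻¹ = (mono K m')⁻¹ * mono K m := by
      rw [← hab] at h
      calc rep K j * pw K (b - a) * (rep K i)⁻¹
          = (mono K m')⁻¹ * (mono K m' * (rep K j * (pw K (b - a) * pw K a))) *
              (pw K a)⁻¹ * (rep K i)⁻¹ := by group
        _ = (mono K m')⁻¹ * mono K m := by rw [← h]; group
    obtain ⟨rfl, hk⟩ := eq_of_isMono_mid K (e ▸ ((isMono_mono K m').inv K).mul (isMono_mono K m))
    obtain rfl : b = a := sub_eq_zero.mp hk
    rw [mono_injective K (mul_right_cancel h)]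
  have : Finite SU₄ := Nat.finite_of_card_ne_zero (by rw [card_SU K]; norm_num)
  refine ((Nat.bijective_iff_injective_and_card _).mpr ⟨hinj, ?_⟩).2
  rw [card_SU K]
  rw [Nat.card_eq_fintype_card, Fintype.card_prod, Fintype.card_prod, Fintype.card_prod, Fintype.card_prod,
    Fintype.card_perm, Fintype.card_fin, Fintype.card_fin, Fintype.card_fin, Fintype.card_fin]
  rfl

/-- The key identity. -/
theorem sum_f (x y : SU₄) : ∑ k : Fin 13, f K (x * pw K k * y) = 0 := by
  obtain ⟨⟨m, i, a⟩, rfl⟩ := decomp_surjective K x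
  obtain ⟨⟨m', j, b⟩, hy⟩ := decomp_surjective K y⁻¹
  obtain rfl := inv_inv y ▸ (congrArg (fun z : SU₄ => z⁻¹) hy).symm
  obtain ⟨s, hs⟩ := (isMono_mono K m).f_mul K
  obtain ⟨t, ht⟩ := ((isMono_mono K m').inv K).f_mul_right K
  have key : ∀ k, f K (decomp K (m, i, a) * pw K k * (decomp K (m', j, b))⁻¹) =
      s * t * f K (rep K i * pw K (a + k - b) * (rep K j)⁻¹) := by
    intro k
    have hb : pw K (a + k - b) = pw K a * pw K k * (pw K b)⁻¹ := by
      rw [eq_mul_inv_iff_mul_eq, ← pw_add, ← pw_add, sub_add_cancel]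
    have : decomp K (m, i, a) * pw K k * (decomp K (m', j, b))⁻¹ =
        mono K m * ((rep K i * pw K (a + k - b) * (rep K j)⁻¹) * (mono K m')⁻¹) := by
      rw [decomp, decomp, hb]; group
    rw [this, hs, ht]; ring
  simp only [key, ← Finset.mul_sum]
  have hsum : ∑ k : Fin 13, f K (rep K i * pw K (a + k - b) * (rep K j)⁻¹) =
      ∑ k : Fin 13, f K (rep K i * pw K k * (rep K j)⁻¹) :=
    Fintype.sum_equiv ((Equiv.addLeft a).trans (Equiv.subRight b)) _ _ fun k => rfl
  rw [hsum]
  have : ∀ k, f K (rep K i * pw K k * (rep K j)⁻¹) = (lab (mid i j k).evenPart : ZMod 5) := fun k => by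
    rw [f, mat_mid, evenF_toMat K.root, label_ev]
  simp [this, (mid_check i j).1]

theorem exists_f_ne_zero : ∃ g : SU₄, f K g ≠ 0 := by
  obtain ⟨i, hi, hne⟩ := label_witness
  refine ⟨rep K ⟨i, hi⟩, ?_⟩
  rw [f, rep, mat_ofCode K (inSU_data.2.2.2 i), evenF_toMat K.root, label_ev]
  intro h
  exact hne ((ZMod.natCast_eq_zero_iff _ _).mp h |> Nat.mod_eq_zero_of_dvd)

end Decomposition

end CfsgLib.OrderDegrees.U34
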